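import Cfsg.Agent.SympEvenDeg.Orbit
import Cfsg.Agent.Classical.CrossChar
import Cfsg.Agent.Classical.Symp.Simple

/-!
Nonlinear irreducible complex representations of `Sp_2n(q)`, `q` even, have degree at least
`(q^n - 1)(q^n - q)/(2(q + 1))`: the characters of the Siegel radical are quadratic forms and come
in congruence orbits.
-/

set_option autoImplicit false

namespace CfsgLib.SympEvenDeg

open Matrix

variable {F : Type*} [Field F] {n : ℕ}

private def radMat (v : Fin n × Fin n → F) : Matrix (Fin n) (Fin n) F :=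
  enc (Matrix.of fun i j => v (i, j))

private def flatten (M : Matrix (Fin n) (Fin n) F) : Fin n × Fin n → F := fun p => M p.1 p.2

private theorem radMat_add (u v : Fin n × Fin n → F) : radMat (u + v) = radMat u + radMat v := by
  simp only [radMat, ← enc_add]; rfl

private def siegelRad (v : Fin n × Fin n → F) : symplecticGroup (Fin n) F :=
  ⟨fromBlocks 1 (radMat v) 0 1, by
    rw [SymplecticGroup.mem_iff]
    simp [J, fromBlocks_multiply, fromBlocks_transpose, radMat, enc_transpose]⟩

private theorem siegelRad_mul (u v : Fin n × Fin n → F) :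
    siegelRad (u + v) = siegelRad u * siegelRad v := by
  apply Subtype.ext
  change fromBlocks 1 (radMat (u + v)) 0 1 = fromBlocks 1 (radMat u) 0 1 * fromBlocks 1 (radMat v) 0 1
  simp [fromBlocks_multiply, radMat_add, add_comm (radMat u)]

private theorem siegelRad_zero : siegelRad (0 : Fin n × Fin n → F) = 1 := by
  have := siegelRad_mul (0 : Fin n × Fin n → F) 0
  rwa [add_zero, left_eq_mul] at this

private theorem siegelRad_congr {u v : Fin n × Fin n → F} (h : radMat u = radMat v) :
    siegelRad u = siegelRad v := by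
  apply Subtype.ext
  change fromBlocks 1 (radMat u) 0 1 = fromBlocks 1 (radMat v) 0 1
  rw [h]

private theorem siegelRad_central (v : Fin n × Fin n → F)
    (h : siegelRad v ∈ Subgroup.center (symplecticGroup (Fin n) F)) : radMat v = 0 := by
  have h1 := congrArg Subtype.val
    (Subgroup.mem_center_iff.mp h ⟨J (Fin n) F, SymplecticGroup.J_mem _ _⟩)
  change J (Fin n) F * fromBlocks 1 (radMat v) 0 1 = fromBlocks 1 (radMat v) 0 1 * J (Fin n) F at h1
  simp [J, fromBlocks_multiply, fromBlocks_inj] at h1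
  rcases h1 with ⟨h1, -⟩
  exact h1.symm

/-- Action of `B` on parameters. -/
private def paramMap (B : Matrix (Fin n) (Fin n) F) (v : Fin n × Fin n → F) : Fin n × Fin n → F :=
  flatten (upp (Bᵀ * radMat v * B))

private theorem radMat_paramMap (B : Matrix (Fin n) (Fin n) F) (v : Fin n × Fin n → F) :
    radMat (paramMap B v) = Bᵀ * radMat v * B := by
  refine Eq.trans (congrArg enc ?_) (enc_upp ?_)
  · rfl
  · simp only [radMat, Matrix.transpose_mul, Matrix.transpose_transpose, enc_transpose, Matrix.mul_assoc]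

private noncomputable def leviElt (B : Matrix (Fin n) (Fin n) F) (hB : B.det ≠ 0) :
    symplecticGroup (Fin n) F :=
  ⟨fromBlocks (Bᵀ)⁻¹ 0 0 B, by
    have hu : IsUnit Bᵀ.det := by rw [det_transpose]; exact hB.isUnit
    have h2 : B * ((Bᵀ)⁻¹)ᵀ = 1 := by
      rw [transpose_nonsing_inv, transpose_transpose, mul_nonsing_inv _ hB.isUnit]
    rw [SymplecticGroup.mem_iff]
    simp [J, fromBlocks_multiply, fromBlocks_transpose, nonsing_inv_mul _ hu, h2]⟩

private theorem siegelRad_levi (B : Matrix (Fin n) (Fin n) F) (hB : B.det ≠ 0)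
    (v : Fin n × Fin n → F) :
    siegelRad v * leviElt B hB = leviElt B hB * siegelRad (paramMap B v) := by
  have hu : IsUnit Bᵀ.det := by rw [det_transpose]; exact hB.isUnit
  apply Subtype.ext
  change fromBlocks 1 (radMat v) 0 1 * fromBlocks (Bᵀ)⁻¹ 0 0 B =
    fromBlocks (Bᵀ)⁻¹ 0 0 B * fromBlocks 1 (radMat (paramMap B v)) 0 1
  simp [fromBlocks_multiply, radMat_paramMap, ← Matrix.mul_assoc, nonsing_inv_mul _ hu]

private theorem dot_flatten (M : Matrix (Fin n) (Fin n) F) (v : Fin n × Fin n → F) :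
    flatten M ⬝ᵥ v = dotM M (Matrix.of fun i j => v (i, j)) := by
  simp [dotProduct, flatten, dotM, Fintype.sum_prod_type]

private theorem dot_paramMap (B W : Matrix (Fin n) (Fin n) F) (v : Fin n × Fin n → F) :
    flatten W ⬝ᵥ paramMap B v = flatten (enc (B * upp W * Bᵀ)) ⬝ᵥ v := by
  rw [dot_flatten, dot_flatten]
  change dotM W (upp (Bᵀ * radMat v * B)) = _
  rw [← dotM_upp, dotM_congr, radMat, dotM_enc]

/-- The Landazuri-Seitz bound for `Sp_2n(q)`, `q` even. -/
theorem degree_bound [Fintype F] [DecidableEq F] (hn : 2 ≤ n) (heven : Even (Fintype.card F))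
    (hex : (n, Fintype.card F) ≠ (2, 2)) (k : ℕ)
    (ρ : Representation ℂ (symplecticGroup (Fin n) F) (Fin k → ℂ)) (hρ : ρ.IsIrreducible) (hk : 2 ≤ k) :
    (Fintype.card F ^ n - 1) * (Fintype.card F ^ n - Fintype.card F) / (2 * (Fintype.card F + 1)) ≤ k := by
  classical
  have hchar : ringChar F = 2 := FiniteField.even_card_iff_char_two.2 (Nat.even_iff.1 heven)
  have hcp : CharP F 2 := ringChar.of_eq hchar
  have hperf : commutator (symplecticGroup (Fin n) F) = ⊤ :=
    CfsgLib.Classical.Symp.commutator_eq_top (by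
      rcases (show n = 2 ∨ 3 ≤ n by omega) with h | h
      · refine Or.inr (Or.inl ⟨h, ?_⟩)
        have h2 : Fintype.card F ≠ 2 := fun hq => hex (by rw [h, hq])
        have := Fintype.one_lt_card (α := F)
        omega
      · exact Or.inl h)
  let ρ' : symplecticGroup (Fin n) F →* (Fin k → ℂ) →ₗ[ℂ] (Fin k → ℂ) := ρ
  have hker : ρ'.ker ≤ Subgroup.center (symplecticGroup (Fin n) F) := by
    refine (CfsgLib.Classical.Symp.le_center_or_eq_top hperf _).resolve_right fun htop => ?_
    have htriv : ∀ g, ρ g = 1 := fun g => MonoidHom.mem_ker.1 (htop ▸ Subgroup.mem_top g : g ∈ ρ'.ker)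
    let e : Fin k → ℂ := Pi.single ⟨0, by omega⟩ 1
    let S : Subrepresentation ρ :=
      ⟨Submodule.span ℂ {e}, fun g v hv => by simpa [htriv g] using hv⟩
    rcases @IsSimpleOrder.eq_bot_or_eq_top _ _ _ hρ S with h | h
    · have h' : Submodule.span ℂ {e} = ⊥ := congrArg Subrepresentation.toSubmodule h
      simp [e] at h'
    · have h' : Submodule.span ℂ {e} = ⊤ := congrArg Subrepresentation.toSubmodule h
      have h1 := finrank_span_le_card (R := ℂ) ({e} : Set (Fin k → ℂ))
      rw [h'] at h1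
      simp at h1
      omega
  have hL : ringChar ℂ ≠ ringChar F := by
    rw [ringChar.eq_zero, hchar]
    norm_num
  obtain ⟨ψ, hψ⟩ := CfsgLib.CrossChar.exists_primitive_char (F := F) ℂ hL
  have hcard := CfsgLib.CrossChar.card_ne_zero (F := F) (L := ℂ) hL
  let Φ : symplecticGroup (Fin n) F →* Matrix (Fin k) (Fin k) ℂ :=
    (LinearMap.toMatrixAlgEquiv' : ((Fin k → ℂ) →ₗ[ℂ] (Fin k → ℂ)) ≃ₐ[ℂ] _).toAlgHom.toMonoidHom.comp ρ'
  let R : (Fin n × Fin n → F) → Matrix (Fin k) (Fin k) ℂ := fun v => Φ (siegelRad v)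
  have h0 : R 0 = 1 := by simp [R, siegelRad_zero]
  have hadd : ∀ u v, R (u + v) = R u * R v := fun u v => by simp [R, siegelRad_mul]
  let i0 : Fin n := ⟨0, by omega⟩
  let i1 : Fin n := ⟨1, by omega⟩
  have hne : i0 ≠ i1 := fun h => absurd (congrArg Fin.val h) (by simp [i0, i1])
  have hlt : i0 < i1 := Fin.mk_lt_mk.2 one_pos
  let v₀ : Fin n × Fin n → F := Pi.single (i0, i1) 1
  have hv₀ : R v₀ ≠ 1 := by
    intro h
    have hk' : siegelRad v₀ ∈ ρ'.ker := by
      refine MonoidHom.mem_ker.2 ((LinearMap.toMatrixAlgEquiv' :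
        ((Fin k → ℂ) →ₗ[ℂ] (Fin k → ℂ)) ≃ₐ[ℂ] _).injective ?_)
      rw [map_one]; exact h
    have := congrFun (congrFun (siegelRad_central v₀ (hker hk')) i0) i1
    simp [radMat, enc, v₀, hne, hne.symm] at this
  obtain ⟨w, y, hy, hwv⟩ := CfsgLib.CrossChar.exists_isWeightVec ψ R hψ hcard h0 hadd v₀ hv₀
  set W : Matrix (Fin n) (Fin n) F := Matrix.of fun i j => w (i, j) with hWdef
  have hWw : flatten W = w := rfl
  set C := upp W
  have hC : C + Cᵀ ≠ 0 := by
    intro h0
    refine hwv ?_
    have h1 := congrFun (congrFun h0 i0) i1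
    simp [C, upp, hlt.le, hlt.not_ge, W] at h1
    simp [v₀, h1]
  have hall : ∀ w' ∈ (encOrbit C).image flatten, ∃ y', CfsgLib.CrossChar.IsWeightVec ψ R w' y' := by
    intro w' hw'
    obtain ⟨M, hM, rfl⟩ := Finset.mem_image.1 hw'
    obtain ⟨B, hB, rfl⟩ := mem_encOrbit.1 hM
    refine ⟨_, CfsgLib.CrossChar.transport_isWeightVec ψ R (Φ (leviElt B hB)) (Φ (leviElt B hB)⁻¹) ?_
      (paramMap B) (fun v => ?_) (fun v => ?_) hy⟩
    · rw [← map_mul, inv_mul_cancel, map_one]
    · simp only [R, ← map_mul, siegelRad_levi B hB v]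
    · rw [← hWw]; exact dot_paramMap B W v
  have hflat : Function.Injective (flatten (F := F) (n := n)) := fun M N h =>
    Matrix.ext fun i j => congrFun h (i, j)
  have h := CfsgLib.CrossChar.card_weights_le ψ R hψ hcard _ hall
  rw [Finset.card_image_of_injective _ hflat] at h
  refine Nat.div_le_of_le_mul ?_
  exact (card_encOrbit hn C hC).trans (Nat.mul_le_mul_left _ h)

end CfsgLib.SympEvenDeg
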