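import Mathlib

/-!
Quadratic forms of a space over a field, written as symmetric matrices: the form `x ↦ xᵀ C x` is
recorded as the symmetric matrix with the diagonal of `C` and the off-diagonal entries of `C + Cᵀ`.
-/

set_option autoImplicit false

namespace CfsgLib.SympEvenDeg

open Matrix

variable {F : Type*} [Field F] {n : ℕ}

/-- The upper triangular part. -/
def upp (W : Matrix (Fin n) (Fin n) F) : Matrix (Fin n) (Fin n) F :=
  Matrix.of fun i j => if i ≤ j then W i j else 0

/-- The symmetric matrix recording the quadratic form of `C`. -/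
def enc (C : Matrix (Fin n) (Fin n) F) : Matrix (Fin n) (Fin n) F :=
  Matrix.of fun i j => C i j + if i = j then 0 else C j i

/-- The polar form of a recorded quadratic form. -/
def pol (M : Matrix (Fin n) (Fin n) F) : Matrix (Fin n) (Fin n) F := upp M + (upp M)ᵀ

/-- The value of the quadratic form of `C`. -/
def qval (C : Matrix (Fin n) (Fin n) F) (x : Fin n → F) : F := x ⬝ᵥ (C *ᵥ x)

/-- The entrywise pairing. -/
def dotM (M N : Matrix (Fin n) (Fin n) F) : F := ∑ i, ∑ j, M i j * N i j

theorem enc_transpose (C : Matrix (Fin n) (Fin n) F) : (enc C)ᵀ = enc C := by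
  ext i j
  rcases eq_or_ne i j with rfl | h
  · rfl
  · simp [enc, h, h.symm, add_comm]

theorem enc_add (C D : Matrix (Fin n) (Fin n) F) : enc (C + D) = enc C + enc D := by
  ext i j
  rcases eq_or_ne i j with rfl | h
  · simp [enc]
  · simp [enc, h]; ring

theorem enc_smul (c : F) (C : Matrix (Fin n) (Fin n) F) : enc (c • C) = c • enc C := by
  ext i j
  rcases eq_or_ne i j with rfl | h
  · simp [enc]
  · simp [enc, h, mul_add]

theorem enc_sub_transpose (X : Matrix (Fin n) (Fin n) F) : enc (X - Xᵀ) = 0 := by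
  ext i j
  rcases eq_or_ne i j with rfl | h
  · simp [enc]
  · simp [enc, h]

theorem enc_upp {S : Matrix (Fin n) (Fin n) F} (hS : Sᵀ = S) : enc (upp S) = S := by
  ext i j
  have hs : S j i = S i j := congrFun (congrFun hS i) j
  rcases lt_trichotomy i j with h | rfl | h
  · simp [enc, upp, h.ne, h.le, h.not_ge]
  · simp [enc, upp]
  · simp [enc, upp, h.ne', h.le, h.not_ge, hs]

theorem exists_eq_upp_enc_add (C : Matrix (Fin n) (Fin n) F) :
    ∃ L : Matrix (Fin n) (Fin n) F, C = upp (enc C) + (L - Lᵀ) := by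
  refine ⟨Matrix.of fun i j => if j < i then C i j else 0, ?_⟩
  ext i j
  rcases lt_trichotomy i j with h | rfl | h
  · simp [enc, upp, h.ne, h.le, h, h.not_gt]
  · simp [enc, upp]
  · simp [enc, upp, h, h.not_gt, h.not_ge]

theorem enc_congr_upp (A C : Matrix (Fin n) (Fin n) F) :
    enc (A * upp (enc C) * Aᵀ) = enc (A * C * Aᵀ) := by
  obtain ⟨L, hL⟩ := exists_eq_upp_enc_add C
  have h : A * C * Aᵀ = A * upp (enc C) * Aᵀ + (A * L * Aᵀ - (A * L * Aᵀ)ᵀ) := by
    conv_lhs => rw [hL]
    simp only [Matrix.mul_add, Matrix.add_mul, Matrix.mul_sub, Matrix.sub_mul, Matrix.transpose_mul,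
      Matrix.transpose_transpose, Matrix.mul_assoc]
  rw [h, enc_add, enc_sub_transpose, add_zero]

theorem pol_enc (C : Matrix (Fin n) (Fin n) F) : pol (enc C) = C + Cᵀ := by
  ext i j
  rcases lt_trichotomy i j with h | rfl | h
  · simp [pol, enc, upp, h.ne, h.le, h.not_ge]
  · simp [pol, enc, upp]
  · simp [pol, enc, upp, h.ne, h.le, h.not_ge, add_comm]

theorem dotM_upp (X Y : Matrix (Fin n) (Fin n) F) : dotM (upp X) Y = dotM X (upp Y) := by
  simp [dotM, upp, ite_mul, mul_ite]

theorem dotM_eq_trace (M N : Matrix (Fin n) (Fin n) F) : dotM M N = (Mᵀ * N).trace := by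
  simp only [dotM, Matrix.trace, Matrix.diag, Matrix.mul_apply, Matrix.transpose_apply]
  exact Finset.sum_comm

theorem dotM_congr (B C S : Matrix (Fin n) (Fin n) F) :
    dotM C (Bᵀ * S * B) = dotM (B * C * Bᵀ) S := by
  rw [dotM_eq_trace, dotM_eq_trace, Matrix.transpose_mul, Matrix.transpose_mul,
    Matrix.transpose_transpose, ← Matrix.mul_assoc, Matrix.trace_mul_comm]
  simp only [Matrix.mul_assoc]

theorem dotM_enc (D V : Matrix (Fin n) (Fin n) F) : dotM D (enc V) = dotM (enc D) V := by
  simp only [dotM, enc, Matrix.of_apply, mul_add, add_mul, Finset.sum_add_distrib]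
  congr 1
  rw [Finset.sum_comm]
  refine Finset.sum_congr rfl fun i _ => Finset.sum_congr rfl fun j _ => ?_
  rcases eq_or_ne i j with rfl | h
  · simp
  · simp [h, h.symm]

theorem qval_smul (C : Matrix (Fin n) (Fin n) F) (c : F) (x : Fin n → F) :
    qval C (c • x) = c ^ 2 * qval C x := by
  simp [qval, Matrix.mulVec_smul]; ring

theorem qval_add (C : Matrix (Fin n) (Fin n) F) (x y : Fin n → F) :
    qval C (x + y) = qval C x + qval C y + x ⬝ᵥ ((C + Cᵀ) *ᵥ y) := by
  have h : x ⬝ᵥ (Cᵀ *ᵥ y) = y ⬝ᵥ (C *ᵥ x) := by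
    rw [Matrix.mulVec_transpose, Matrix.dotProduct_mulVec y C x, dotProduct_comm]
  simp only [qval, Matrix.mulVec_add, Matrix.add_mulVec, dotProduct_add, add_dotProduct, h]
  ring

theorem dot_polar_comm (C : Matrix (Fin n) (Fin n) F) (x y : Fin n → F) :
    x ⬝ᵥ ((C + Cᵀ) *ᵥ y) = y ⬝ᵥ ((C + Cᵀ) *ᵥ x) := by
  have e : (C + Cᵀ)ᵀ = C + Cᵀ := by rw [Matrix.transpose_add, Matrix.transpose_transpose, add_comm]
  conv_lhs => rw [← e, Matrix.mulVec_transpose, dotProduct_comm, ← Matrix.dotProduct_mulVec]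

variable [CharP F 2]

theorem enc_add_transpose (X : Matrix (Fin n) (Fin n) F) : enc (X + Xᵀ) = 0 := by
  have h : X + Xᵀ = X - Xᵀ := by ext i j; simp [CharTwo.sub_eq_add]
  rw [h, enc_sub_transpose]

theorem dot_polar_self (C : Matrix (Fin n) (Fin n) F) (x : Fin n → F) :
    x ⬝ᵥ ((C + Cᵀ) *ᵥ x) = 0 := by
  have h := qval_add C x x
  rw [show x + x = (0 : Fin n → F) from funext fun i => CharTwo.add_self_eq_zero (x i),
    CharTwo.add_self_eq_zero, zero_add] at h
  rw [← h]; simp [qval]

theorem enc_vecMulVec_self (a : Fin n → F) :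
    enc (Matrix.vecMulVec a a) = Matrix.diagonal fun i => a i ^ 2 := by
  ext i j
  rcases eq_or_ne i j with rfl | h
  · simp [enc, Matrix.vecMulVec_apply, sq]
  · simp [enc, Matrix.vecMulVec_apply, h, mul_comm (a i), CharTwo.add_self_eq_zero]

/-- A transvection along `u` fixes the polar form and adds the square of a linear form. -/
theorem exists_shift (C : Matrix (Fin n) (Fin n) F) (u : Fin n → F) (z : F)
    (hz : z ^ 2 * qval C u + z = 1) :
    ∃ A : Matrix (Fin n) (Fin n) F, A.det ≠ 0 ∧
      enc (A * C * Aᵀ) = enc C + Matrix.diagonal fun i => ((C + Cᵀ) *ᵥ u) i ^ 2 := by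
  classical
  set a : Fin n → F := (C + Cᵀ) *ᵥ u with ha
  refine ⟨1 + z • Matrix.vecMulVec a u, ?_, ?_⟩
  · have e : z • Matrix.vecMulVec a u = replicateCol Unit (z • a) * replicateRow Unit u := by
      rw [← Matrix.smul_vecMulVec, Matrix.vecMulVec_eq Unit]
    rw [e, Matrix.det_one_add_replicateCol_mul_replicateRow, dotProduct_smul, ha, dot_polar_self,
      smul_zero, add_zero]
    exact one_ne_zero
  · have h1 : u ᵥ* C = a + C *ᵥ u := by
      rw [ha, Matrix.add_mulVec, Matrix.mulVec_transpose]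
      ext i
      simp only [Pi.add_apply]
      rw [add_right_comm, CharTwo.add_self_eq_zero, zero_add]
    have h2 : (u ᵥ* C) ⬝ᵥ u = qval C u := (Matrix.dotProduct_mulVec u C u).symm
    set X := Matrix.vecMulVec (C *ᵥ u) a
    have h : (1 + z • Matrix.vecMulVec a u) * C * (1 + z • Matrix.vecMulVec a u)ᵀ =
        C + (z ^ 2 * qval C u + z) • Matrix.vecMulVec a a + z • (X + Xᵀ) := by
      have e1 : C * Matrix.vecMulVec u a = X := Matrix.mul_vecMulVec _ _ _
      have e2 : Matrix.vecMulVec a u * C = Matrix.vecMulVec a a + Xᵀ := by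
        rw [Matrix.vecMulVec_mul, h1, Matrix.vecMulVec_add, Matrix.transpose_vecMulVec]
      have e3 : Matrix.vecMulVec a u * C * Matrix.vecMulVec u a = qval C u • Matrix.vecMulVec a a := by
        rw [Matrix.vecMulVec_mul, Matrix.vecMulVec_mul_vecMulVec, h2, Matrix.vecMulVec_smul]
      simp only [Matrix.transpose_add, Matrix.transpose_one, Matrix.transpose_smul,
        Matrix.transpose_vecMulVec, Matrix.add_mul, Matrix.mul_add, Matrix.one_mul, Matrix.mul_one,
        Matrix.smul_mul, Matrix.mul_smul, smul_smul, e3, e1]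
      rw [e2]
      module
    rw [h, hz, one_smul, enc_add, enc_add, enc_smul, enc_add_transpose, smul_zero, add_zero,
      enc_vecMulVec_self]

end CfsgLib.SympEvenDeg
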