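import Cfsg.Agent.SympEvenDeg.Forms
import Cfsg.Agent.SympWeil.SymOrbit

/-!
In characteristic two the orbit of `GL_n(q)` on a quadratic form with nonzero polar form has at least
`(q^n - 1)(q^n - q)/(2(q + 1))` elements.
-/

set_option autoImplicit false

namespace CfsgLib.SympEvenDeg

open Matrix CfsgLib.SympWeil

variable {F : Type*} [Field F]

/-- Block matrix `[[1, 0], [u, G]]`. -/
private def lowerBlock {n : ℕ} (u : Fin n → F) (G : Matrix (Fin n) (Fin n) F) :
    Matrix (Fin (n + 1)) (Fin (n + 1)) F :=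
  Matrix.of (Fin.cons (Fin.cons 1 0) fun i => Fin.cons (u i) (G i))

private theorem det_lowerBlock {n : ℕ} (u : Fin n → F) (G : Matrix (Fin n) (Fin n) F) :
    (lowerBlock u G).det = G.det := by
  rw [Matrix.det_succ_row_zero, Finset.sum_eq_single 0]
  · have : (lowerBlock u G).submatrix Fin.succ (Fin.succAbove 0) = G := by
      ext i j; simp [lowerBlock]
    rw [this]; simp [lowerBlock]
  · intro j _ hj
    obtain ⟨j, rfl⟩ := Fin.exists_succ_eq.2 hj
    simp [lowerBlock]
  · simp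

private theorem lowerBlock_col {n : ℕ} (u : Fin n → F) (G : Matrix (Fin n) (Fin n) F)
    (M : Matrix (Fin (n + 1)) (Fin (n + 1)) F) (i : Fin n) :
    (lowerBlock u G * M * (lowerBlock u G)ᵀ) i.succ 0 =
      u i * M 0 0 + (G *ᵥ fun j => M j.succ 0) i := by
  simp [congr_apply', lowerBlock, dotProduct, Matrix.mulVec, Fin.sum_univ_succ]

private theorem lowerBlock_one_block {n : ℕ} (u : Fin n → F)
    (M : Matrix (Fin (n + 1)) (Fin (n + 1)) F) (i j : Fin n) :
    (lowerBlock u 1 * M * (lowerBlock u 1)ᵀ) i.succ j.succ =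
      u i * (M 0 0 * u j + M 0 j.succ) + (M i.succ 0 * u j + M i.succ j.succ) := by
  simp [congr_apply', lowerBlock, dotProduct, Matrix.mulVec, Fin.sum_univ_succ, Matrix.one_apply]

variable [Fintype F] [DecidableEq F] [CharP F 2]

/-- The number of vectors outside the kernel. -/
def offKer {n : ℕ} (B : Matrix (Fin n) (Fin n) F) : ℕ :=
  (Finset.univ.filter fun x : Fin n → F => B *ᵥ x ≠ 0).card

omit [CharP F 2] in
theorem offKer_congr {n : ℕ} (B A : Matrix (Fin n) (Fin n) F) (hA : A.det ≠ 0) :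
    offKer (A * B * Aᵀ) = offKer B := by
  have hu : IsUnit A.det := hA.isUnit
  have hu' : IsUnit Aᵀ.det := by rw [Matrix.det_transpose]; exact hu
  have key : ∀ x, (A * B * Aᵀ) *ᵥ x = 0 ↔ B *ᵥ (Aᵀ *ᵥ x) = 0 := fun x => by
    rw [← Matrix.mulVec_mulVec, ← Matrix.mulVec_mulVec]
    refine ⟨fun h => ?_, fun h => by rw [h, Matrix.mulVec_zero]⟩
    have := congrArg (A⁻¹ *ᵥ ·) h
    simpa [Matrix.mulVec_mulVec, ← Matrix.mul_assoc, Matrix.nonsing_inv_mul _ hu] using this
  refine Finset.card_nbij' (fun x => Aᵀ *ᵥ x) (fun y => (Aᵀ)⁻¹ *ᵥ y) ?_ ?_ ?_ ?_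
  · intro x hx
    simp only [Finset.coe_filter, Finset.mem_univ, true_and, Set.mem_ofPred_eq] at hx ⊢
    exact fun h => hx ((key x).2 h)
  · intro y hy
    simp only [Finset.coe_filter, Finset.mem_univ, true_and, Set.mem_ofPred_eq] at hy ⊢
    intro h
    have h' := (key _).1 h
    rw [Matrix.mulVec_mulVec y, Matrix.mul_nonsing_inv _ hu', Matrix.one_mulVec] at h'
    exact hy h'
  · intro x _; simp [Matrix.mulVec_mulVec, Matrix.nonsing_inv_mul _ hu']
  · intro y _; simp [Matrix.mulVec_mulVec, Matrix.mul_nonsing_inv _ hu']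

omit [Fintype F] [CharP F 2] [DecidableEq F] in
theorem congr_ne_zero {n : ℕ} {B A : Matrix (Fin n) (Fin n) F} (hA : A.det ≠ 0) (hB : B ≠ 0) :
    A * B * Aᵀ ≠ 0 := fun h0 => hB <| by
  have hu : IsUnit A.det := hA.isUnit
  have hu' : IsUnit Aᵀ.det := by rw [Matrix.det_transpose]; exact hu
  calc B = A⁻¹ * (A * B * Aᵀ) * (Aᵀ)⁻¹ := by
        simp only [← Matrix.mul_assoc, Matrix.nonsing_inv_mul _ hu, Matrix.one_mul]
        rw [Matrix.mul_assoc, Matrix.mul_nonsing_inv _ hu', Matrix.mul_one]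
    _ = 0 := by rw [h0]; simp

/-- Many forms in a congruence orbit of alternating forms do not kill a given vector. -/
theorem card_congrOrbit_offKer {m : ℕ} (C : Matrix (Fin (m + 1)) (Fin (m + 1)) F)
    (hC : C + Cᵀ ≠ 0) {x : Fin (m + 1) → F} (hx : x ≠ 0) :
    (Fintype.card F ^ m - 1) * Fintype.card F ^ m ≤
      Fintype.card F * ((congrOrbit (C + Cᵀ)).filter fun M => M *ᵥ x ≠ 0).card := by
  classical
  set B := C + Cᵀ with hBdef
  have hBs : Bᵀ = B := by rw [hBdef, Matrix.transpose_add, Matrix.transpose_transpose]; exact add_comm _ _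
  set e0 : Fin (m + 1) → F := Pi.single 0 1 with he0
  have he0ne : e0 ≠ 0 := fun h => one_ne_zero (show (1 : F) = 0 by simpa [he0] using congrFun h 0)
  have hcol : ∀ (M : Matrix (Fin (m + 1)) (Fin (m + 1)) F) i, (M *ᵥ e0) i = M i 0 := fun M i => by
    rw [he0, Matrix.mulVec_single_one]; rfl
  have h00 : ∀ M ∈ congrOrbit B, M 0 0 = 0 := by
    intro M hM
    obtain ⟨A, -, rfl⟩ := mem_congrOrbit.1 hM
    rw [congr_apply', hBdef, dot_polar_self]
  set T := (congrOrbit B).filter fun M => M *ᵥ e0 ≠ 0 with hT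
  -- reduce to the first basis vector
  have hle : T.card ≤ ((congrOrbit B).filter fun M => M *ᵥ x ≠ 0).card := by
    obtain ⟨H, hH, hHx⟩ := exists_det_mulVec hx he0ne
    have hu : IsUnit H.det := hH.isUnit
    have hu' : IsUnit Hᵀ.det := by rw [Matrix.det_transpose]; exact hu
    refine Finset.card_le_card_of_injOn (fun M => Hᵀ * M * Hᵀᵀ) (fun M hM => ?_) ?_
    · obtain ⟨hMO, hMe⟩ := Finset.mem_filter.1 hM
      refine Finset.mem_filter.2 ⟨congrOrbit_trans hMO _ (by rwa [Matrix.det_transpose]), fun h => hMe ?_⟩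
      rw [Matrix.transpose_transpose, ← Matrix.mulVec_mulVec, ← Matrix.mulVec_mulVec, hHx] at h
      have := congrArg ((Hᵀ)⁻¹ *ᵥ ·) h
      simpa [Matrix.mulVec_mulVec, ← Matrix.mul_assoc, Matrix.nonsing_inv_mul _ hu'] using this
    · intro M _ M' _ h
      simp only [Matrix.transpose_transpose] at h
      have := congrArg (fun N => (Hᵀ)⁻¹ * N * H⁻¹) h
      simpa [← Matrix.mul_assoc, Matrix.nonsing_inv_mul _ hu', Matrix.mul_nonsing_inv_cancel_right _ _ hu]
        using this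
  refine le_trans ?_ (Nat.mul_le_mul_left _ hle)
  -- a form with nonzero first column
  obtain ⟨M₀, hM₀, hM₀e⟩ : ∃ M ∈ congrOrbit B, M *ᵥ e0 ≠ 0 := by
    obtain ⟨j, hj⟩ : ∃ j, B *ᵥ Pi.single j 1 ≠ 0 := by
      by_contra hc
      push Not at hc
      exact hC (Matrix.ext_of_mulVec_single fun j => by rw [hc j, Matrix.zero_mulVec])
    have hjne : (Pi.single j 1 : Fin (m + 1) → F) ≠ 0 := fun h => hj (by rw [h, Matrix.mulVec_zero])
    obtain ⟨G, hG, hGe⟩ := exists_det_mulVec he0ne hjne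
    have hu' : IsUnit Gᵀ.det := by rw [Matrix.det_transpose]; exact hG.isUnit
    refine ⟨Gᵀ * B * Gᵀᵀ, mem_congrOrbit.2 ⟨Gᵀ, by rwa [Matrix.det_transpose], rfl⟩, fun h => hj ?_⟩
    rw [Matrix.transpose_transpose, ← Matrix.mulVec_mulVec, ← Matrix.mulVec_mulVec, hGe] at h
    have := congrArg ((Gᵀ)⁻¹ *ᵥ ·) h
    simpa [Matrix.mulVec_mulVec, ← Matrix.mul_assoc, Matrix.nonsing_inv_mul _ hu'] using this
  set b : Fin m → F := fun i => M₀ i.succ 0 with hb
  have hb0 : b ≠ 0 := fun h => hM₀e <| funext fun i => by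
    rw [hcol]
    refine Fin.cases ?_ (fun i => ?_) i
    · exact h00 M₀ hM₀
    · exact congrFun h i
  have hfam : ∀ v : Fin m → F, ∃ M ∈ congrOrbit B, v ≠ 0 → ∀ i : Fin m, M i.succ 0 = v i := by
    intro v
    by_cases hv : v = 0
    · exact ⟨M₀, hM₀, fun h => absurd hv h⟩
    · obtain ⟨G, hG, hGv⟩ := exists_det_mulVec hb0 hv
      refine ⟨_, congrOrbit_trans hM₀ (lowerBlock 0 G) (by rwa [det_lowerBlock]), fun _ i => ?_⟩
      rw [lowerBlock_col, ← hb, hGv]
      simp
  choose Mv hMv hMvcol using hfam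
  set S := ((Finset.univ : Finset (Fin m → F)).erase 0) ×ˢ (Finset.univ : Finset (Fin m → F))
  set Φ : (Fin m → F) × (Fin m → F) → Matrix (Fin (m + 1)) (Fin (m + 1)) F :=
    fun p => lowerBlock p.2 1 * Mv p.1 * (lowerBlock p.2 1)ᵀ
  have hΦcol : ∀ p ∈ S, ∀ i : Fin m, Φ p i.succ 0 = p.1 i := by
    intro p hp i
    simp only [Φ, lowerBlock_col, Matrix.one_mulVec, h00 _ (hMv p.1), mul_zero, zero_add]
    exact hMvcol p.1 (Finset.ne_of_mem_erase (Finset.mem_product.1 hp).1) i
  have hsub : S.image Φ ⊆ T := by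
    intro M hM
    obtain ⟨p, hp, rfl⟩ := Finset.mem_image.1 hM
    refine Finset.mem_filter.2 ⟨congrOrbit_trans (hMv _) _ (by simp [det_lowerBlock]), fun h => ?_⟩
    refine Finset.ne_of_mem_erase (Finset.mem_product.1 hp).1 (funext fun i => ?_)
    have := congrFun h i.succ
    rw [hcol, hΦcol p hp] at this
    exact this
  have hfib : ∀ M ∈ S.image Φ, (S.filter fun p => Φ p = M).card ≤ Fintype.card F := by
    intro M hM
    obtain ⟨p₀, hp₀, rfl⟩ := Finset.mem_image.1 hM
    set v := p₀.1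
    obtain ⟨k, hk⟩ := Function.ne_iff.1 (Finset.ne_of_mem_erase (Finset.mem_product.1 hp₀).1)
    have hfst : ∀ p ∈ S.filter (fun p => Φ p = Φ p₀), p.1 = v := by
      intro p hp
      obtain ⟨hpS, hpΦ⟩ := Finset.mem_filter.1 hp
      funext i
      rw [← hΦcol p hpS, hpΦ, hΦcol p₀ hp₀]
    refine (Finset.card_le_card_of_injOn (t := (Finset.univ : Finset F)) (fun p => p.2 k)
      (fun p _ => Finset.mem_univ _) ?_).trans le_rfl
    intro p hp p' hp' (hpk : p.2 k = p'.2 k)
    have h1 := hfst p hp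
    have h2 := hfst p' hp'
    refine Prod.ext (h1.trans h2.symm) (funext fun i => ?_)
    have he : Φ p i.succ k.succ = Φ p' i.succ k.succ := by
      rw [(Finset.mem_filter.1 hp).2, (Finset.mem_filter.1 hp').2]
    have hv : v ≠ 0 := Finset.ne_of_mem_erase (Finset.mem_product.1 hp₀).1
    have hs : ∀ j : Fin m, Mv v 0 j.succ = v j := fun j => by
      have := transpose_of_mem_congrOrbit hBs (hMv v)
      rw [← hMvcol v hv j]
      exact congrFun (congrFun this j.succ) 0
    simp only [Φ, lowerBlock_one_block, h1, h2, h00 _ (hMv v), hMvcol v hv, hs, zero_mul, zero_add,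
      hpk] at he
    exact mul_right_cancel₀ hk (add_right_cancel he)
  have h := Finset.card_le_mul_card_image S (Fintype.card F) hfib
  rw [Finset.card_product, Finset.card_erase_of_mem (Finset.mem_univ _), Finset.card_univ,
    Fintype.card_fun, Fintype.card_fin] at h
  exact h.trans (Nat.mul_le_mul_left _ (Finset.card_le_card hsub))

omit [DecidableEq F] in
theorem exists_sq_eq (a : F) : ∃ b : F, b ^ 2 = a := by
  obtain ⟨b, hb⟩ := FiniteField.isSquare_of_char_two (ringChar.eq F 2) a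
  exact ⟨b, by rw [hb, sq]⟩

/-- The values `w² + w`. -/
def asSet : Finset F := Finset.univ.image fun w : F => w ^ 2 + w

omit [CharP F 2] in
theorem zero_mem_asSet : (0 : F) ∈ asSet := Finset.mem_image.2 ⟨0, Finset.mem_univ _, by simp⟩

theorem card_le_two_mul_asSet : Fintype.card F ≤ 2 * (asSet : Finset F).card := by
  refine Finset.card_univ.symm.le.trans (Finset.card_le_mul_card_image _ 2 fun b hb => ?_)
  obtain ⟨w, -, rfl⟩ := Finset.mem_image.1 hb
  refine (Finset.card_le_card (t := {w, w + 1}) fun x hx => ?_).trans Finset.card_le_two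
  have h := (Finset.mem_filter.1 hx).2
  have h1 : (x + w) * (x + w + 1) = 0 := by
    linear_combination h + (w ^ 2 + w + x * w) * CharTwo.two_eq_zero (R := F)
  rcases mul_eq_zero.1 h1 with h2 | h2
  · simp [CharTwo.add_eq_zero.1 h2]
  · rw [add_assoc] at h2
    simp [CharTwo.add_eq_zero.1 h2]

theorem exists_shift_scalar {a : F} (ha : a ∈ asSet) : ∃ z : F, z ^ 2 * a + z = 1 := by
  obtain ⟨w, -, rfl⟩ := Finset.mem_image.1 ha
  rcases eq_or_ne w 0 with rfl | hw
  · exact ⟨1, by simp⟩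
  · refine ⟨w⁻¹, ?_⟩
    field_simp
    linear_combination CharTwo.two_eq_zero (R := F)

theorem card_asSet_le_filter (c : F) :
    (asSet : Finset F).card ≤ (Finset.univ.filter fun s : F => s ^ 2 * c ∈ asSet).card := by
  by_cases hc : c = 0
  · refine Finset.card_le_card fun s _ => Finset.mem_filter.2 ⟨Finset.mem_univ _, ?_⟩
    simp [hc, zero_mem_asSet]
  · refine Finset.card_le_card_of_surjOn (fun s => s ^ 2 * c) fun a ha => ?_
    obtain ⟨b, hb⟩ := exists_sq_eq (a / c)
    have hb' : b ^ 2 * c = a := by rw [hb, div_mul_cancel₀ _ hc]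
    refine ⟨b, ?_, hb'⟩
    simp only [Finset.coe_filter, Finset.mem_univ, true_and, Set.mem_ofPred_eq, hb']
    exact ha

omit [DecidableEq F] [CharP F 2] in
theorem card_sigma_pairs_le (S : F → Finset F) (hS : ∀ r, ∀ s ∈ S r, s ≠ 0) (T : Finset (F × F))
    (hT : ∀ r, ∀ s ∈ S r, (s, s * r) ∈ T) : ∑ r, (S r).card ≤ T.card := by
  rw [← Finset.card_sigma]
  refine Finset.card_le_card_of_injOn (fun p => (p.2, p.2 * p.1)) (fun p hp => hT _ _ (Finset.mem_sigma.1 hp).2) ?_
  rintro ⟨r, s⟩ hp ⟨r', s'⟩ _ h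
  obtain ⟨rfl, h2⟩ := Prod.mk.inj h
  obtain rfl := mul_left_cancel₀ (hS r s (Finset.mem_sigma.1 hp).2) h2
  rfl

/-- The quadratic forms with a given polar form: either there are many, or the polar form has
rank two. -/
theorem card_shifts {n : ℕ} (C : Matrix (Fin n) (Fin n) F) (hC : C + Cᵀ ≠ 0) :
    ∃ U : Finset (Fin n → F), (∀ u ∈ U, ∃ z, z ^ 2 * qval C u + z = 1) ∧
      Fintype.card F * (Fintype.card F - 1) ≤ 2 * (U.image fun u => (C + Cᵀ) *ᵥ u).card ∧
      (Fintype.card F ^ 2 ≤ 2 * (U.image fun u => (C + Cᵀ) *ᵥ u).card ∨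
        offKer (C + Cᵀ) * Fintype.card F ^ 2 + Fintype.card F ^ n ≤
          Fintype.card F ^ n * Fintype.card F ^ 2) := by
  classical
  set B := C + Cᵀ with hB
  set q := Fintype.card F with hq
  have hsymm : ∀ x y, x ⬝ᵥ (B *ᵥ y) = y ⬝ᵥ (B *ᵥ x) := dot_polar_comm C
  have hself : ∀ x, x ⬝ᵥ (B *ᵥ x) = 0 := dot_polar_self C
  obtain ⟨e, f, hef⟩ : ∃ e f : Fin n → F, e ⬝ᵥ (B *ᵥ f) = 1 := by
    obtain ⟨i, j, hij⟩ : ∃ i j, B i j ≠ 0 := by
      by_contra hc
      push Not at hc
      exact hC (Matrix.ext hc)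
    refine ⟨Pi.single i (B i j)⁻¹, Pi.single j 1, ?_⟩
    rw [single_dotProduct, Matrix.mulVec_single_one, Matrix.col_apply, inv_mul_cancel₀ hij]
  set pl : F × F → (Fin n → F) := fun p => p.1 • e + p.2 • f with hpl
  have hf_pl : ∀ p : F × F, f ⬝ᵥ (B *ᵥ pl p) = p.1 := fun p => by
    simp [hpl, Matrix.mulVec_add, Matrix.mulVec_smul, hsymm f e, hef, hself]
  have he_pl : ∀ p : F × F, e ⬝ᵥ (B *ᵥ pl p) = p.2 := fun p => by
    simp [hpl, Matrix.mulVec_add, Matrix.mulVec_smul, hef, hself]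
  have hinj : Function.Injective fun p => B *ᵥ pl p := fun p p' h => by
    refine Prod.ext ?_ ?_
    · rw [← hf_pl p, ← hf_pl p']; exact congrArg (f ⬝ᵥ ·) h
    · rw [← he_pl p, ← he_pl p']; exact congrArg (e ⬝ᵥ ·) h
  have hQ : ∀ s t, qval C (pl (s, t)) = s ^ 2 * qval C e + t ^ 2 * qval C f + s * t := fun s t => by
    simp only [hpl, qval_add, qval_smul, ← hB, Matrix.mulVec_smul, dotProduct_smul, smul_dotProduct,
      hef, smul_eq_mul, mul_one]
    ring
  set G := (Finset.univ : Finset (F × F)).filter fun p => qval C (pl p) ∈ asSet with hG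
  have hG2 : q * (q - 1) ≤ 2 * G.card := by
    set h := (asSet : Finset F).card with hh
    have hqh : q ≤ 2 * h := card_le_two_mul_asSet
    have hsplit : (G.filter fun p => p.1 = 0).card + (G.filter fun p => ¬p.1 = 0).card = G.card :=
      Finset.card_filter_add_card_filter_not _
    have h0 : h ≤ (G.filter fun p => p.1 = 0).card := by
      refine (card_asSet_le_filter (qval C f)).trans
        (Finset.card_le_card_of_injOn (fun t => (0, t)) (fun t ht => ?_) fun a _ b _ hab => (Prod.mk.inj hab).2)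
      refine Finset.mem_filter.2 ⟨Finset.mem_filter.2 ⟨Finset.mem_univ _, ?_⟩, rfl⟩
      rw [hQ]
      simpa using (Finset.mem_filter.1 ht).2
    have h1 : q * (h - 1) ≤ (G.filter fun p => ¬p.1 = 0).card := by
      set S : F → Finset F := fun r =>
        (Finset.univ.filter fun s : F => s ^ 2 * (qval C e + r ^ 2 * qval C f + r) ∈ asSet).erase 0
      refine le_trans ?_ (card_sigma_pairs_le S (fun r s hs => Finset.ne_of_mem_erase hs) _ fun r s hs => ?_)
      · have hr : ∀ r ∈ (Finset.univ : Finset F), h - 1 ≤ (S r).card := fun r _ =>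
          (Nat.sub_le_sub_right (card_asSet_le_filter _) 1).trans Finset.pred_card_le_card_erase
        have := Finset.card_nsmul_le_sum _ _ _ hr
        rwa [Finset.card_univ, smul_eq_mul, ← hq] at this
      · refine Finset.mem_filter.2 ⟨Finset.mem_filter.2 ⟨Finset.mem_univ _, ?_⟩, Finset.ne_of_mem_erase hs⟩
        rw [hQ]
        convert (Finset.mem_filter.1 (Finset.mem_of_mem_erase hs)).2 using 1
        ring
    obtain ⟨p, hp⟩ : ∃ p, q = p + 1 := ⟨q - 1, by have := Fintype.one_lt_card (α := F); omega⟩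
    obtain ⟨h', hh'⟩ : ∃ h', h = h' + 1 := ⟨h - 1, by omega⟩
    rw [hp, hh', Nat.add_sub_cancel] at h1
    rw [hp, Nat.add_sub_cancel]
    have : (p + 1) * (p + 1) ≤ (p + 1) * (2 * (h' + 1)) := Nat.mul_le_mul_left _ (by omega)
    nlinarith [hsplit]
  set U₀ := G.image pl with hU₀
  have hU₀good : ∀ u ∈ U₀, ∃ z, z ^ 2 * qval C u + z = 1 := by
    intro u hu
    obtain ⟨p, hp, rfl⟩ := Finset.mem_image.1 hu
    exact exists_shift_scalar (Finset.mem_filter.1 hp).2
  have hU₀img : (U₀.image fun u => B *ᵥ u).card = G.card := by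
    rw [hU₀, Finset.image_image]
    exact Finset.card_image_of_injective _ hinj
  by_cases hA : ∀ x, e ⬝ᵥ (B *ᵥ x) = 0 → f ⬝ᵥ (B *ᵥ x) = 0 → B *ᵥ x = 0
  · refine ⟨U₀, hU₀good, by rwa [hU₀img], Or.inr ?_⟩
    set K := (Finset.univ : Finset (Fin n → F)).filter fun x => B *ᵥ x = 0 with hK
    have hcover : q ^ n ≤ K.card * q ^ 2 := by
      have hsub : (Finset.univ : Finset (Fin n → F)) ⊆
          (K ×ˢ (Finset.univ : Finset (F × F))).image fun p => p.1 + pl p.2 := by
        intro x _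
        refine Finset.mem_image.2 ⟨(x - pl (f ⬝ᵥ (B *ᵥ x), e ⬝ᵥ (B *ᵥ x)), (f ⬝ᵥ (B *ᵥ x), e ⬝ᵥ (B *ᵥ x))),
          Finset.mem_product.2 ⟨Finset.mem_filter.2 ⟨Finset.mem_univ _, hA _ ?_ ?_⟩, Finset.mem_univ _⟩,
          sub_add_cancel _ _⟩
        · rw [Matrix.mulVec_sub, dotProduct_sub, he_pl, sub_self]
        · rw [Matrix.mulVec_sub, dotProduct_sub, hf_pl, sub_self]
      have := (Finset.card_le_card hsub).trans Finset.card_image_le
      rwa [Finset.card_product, Finset.card_univ, Fintype.card_fun, Fintype.card_fin, Finset.card_univ,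
        Fintype.card_prod, ← hq, ← sq] at this
    have hsplit : K.card + offKer B = q ^ n := by
      rw [hK, offKer]
      exact (Finset.card_filter_add_card_filter_not (fun x : Fin n → F => B *ᵥ x = 0)).trans (by
        rw [Finset.card_univ, Fintype.card_fun, Fintype.card_fin])
    rw [← hsplit] at hcover ⊢
    nlinarith [hcover]
  · push Not at hA
    obtain ⟨x, hxe, hxf, hx0⟩ := hA
    obtain ⟨p₀, hp₀⟩ : ∃ p : F × F, qval C (pl p) ≠ 0 := by
      by_contra hc
      push Not at hc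
      have h1 := hc (1, 0)
      have h2 := hc (0, 1)
      have h3 := hc (1, 1)
      rw [hQ] at h1 h2 h3
      simp only [one_pow, one_mul, zero_mul, mul_zero, add_zero, zero_add, ne_eq, OfNat.ofNat_ne_zero,
        not_false_eq_true, zero_pow] at h1 h2 h3
      rw [h1, h2] at h3
      simp at h3
    obtain ⟨c, hc⟩ := exists_sq_eq (qval C x / qval C (pl p₀))
    set g := x + c • pl p₀ with hg
    have hxpl : ∀ p, x ⬝ᵥ (B *ᵥ pl p) = 0 := fun p => by
      simp [hpl, Matrix.mulVec_add, Matrix.mulVec_smul, hsymm x e, hsymm x f, hxe, hxf]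
    have hQg : qval C g = 0 := by
      rw [hg, qval_add, qval_smul, ← hB, Matrix.mulVec_smul, dotProduct_smul, hxpl, smul_zero, add_zero,
        hc, div_mul_cancel₀ _ hp₀, CharTwo.add_self_eq_zero]
    have hnew : ∀ ν : F, ν ≠ 0 → ∀ p, B *ᵥ (ν • g) ≠ B *ᵥ pl p := by
      intro ν hν p h
      refine hx0 ?_
      have h' : B *ᵥ (ν • x) = B *ᵥ pl (p.1 - ν * c * p₀.1, p.2 - ν * c * p₀.2) := by
        have e1 : pl (p.1 - ν * c * p₀.1, p.2 - ν * c * p₀.2) = pl p - (ν * c) • pl p₀ := by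
          simp only [hpl, sub_smul, smul_add, smul_smul]; abel
        rw [e1, Matrix.mulVec_sub, ← h, ← Matrix.mulVec_sub, hg]
        congr 1
        rw [smul_add, smul_smul, add_sub_cancel_right]
      have hp1 := congrArg (f ⬝ᵥ ·) h'
      have hp2 := congrArg (e ⬝ᵥ ·) h'
      simp only [hf_pl, he_pl, Matrix.mulVec_smul, dotProduct_smul, hxe, hxf, smul_zero] at hp1 hp2
      rw [show (p.1 - ν * c * p₀.1, p.2 - ν * c * p₀.2) = ((0 : F), (0 : F)) from
        Prod.ext hp1.symm hp2.symm] at h'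
      simpa [hpl, Matrix.mulVec_smul, hν] using h'
    have hBg : B *ᵥ g ≠ 0 := fun h => hnew 1 one_ne_zero (0, 0) (by
      rw [one_smul, h]; simp [hpl])
    set V := ((Finset.univ : Finset F).erase 0).image fun ν => ν • g with hV
    have hU : ∀ u ∈ U₀ ∪ V, ∃ z, z ^ 2 * qval C u + z = 1 := by
      intro u hu
      rcases Finset.mem_union.1 hu with hu | hu
      · exact hU₀good u hu
      · obtain ⟨ν, -, rfl⟩ := Finset.mem_image.1 hu
        exact ⟨1, by simp [qval_smul, hQg]⟩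
    have hcard : ((U₀ ∪ V).image fun u => B *ᵥ u).card = G.card + (q - 1) := by
      rw [Finset.image_union, Finset.card_union_of_disjoint, hU₀img]
      · congr 1
        rw [hV, Finset.image_image, Finset.card_image_of_injective, Finset.card_erase_of_mem (Finset.mem_univ _),
          Finset.card_univ, ← hq]
        intro a b h
        simp only [Function.comp, Matrix.mulVec_smul] at h
        exact smul_left_injective F hBg h
      · rw [Finset.disjoint_left]
        intro y hy hy'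
        obtain ⟨u, hu, rfl⟩ := Finset.mem_image.1 hy
        obtain ⟨p, -, rfl⟩ := Finset.mem_image.1 hu
        obtain ⟨u', hu', he'⟩ := Finset.mem_image.1 hy'
        obtain ⟨ν, hν, rfl⟩ := Finset.mem_image.1 hu'
        exact hnew ν (Finset.ne_of_mem_erase hν) p he'
    refine ⟨U₀ ∪ V, hU, ?_, Or.inl ?_⟩
    · rw [hcard]; omega
    · rw [hcard]
      obtain ⟨p, hp⟩ : ∃ p, q = p + 1 := ⟨q - 1, by have := Fintype.one_lt_card (α := F); omega⟩
      have := Fintype.one_lt_card (α := F)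
      rw [hp, Nat.add_sub_cancel] at hG2 ⊢
      nlinarith

/-- The orbit of a quadratic form with a given matrix. -/
def encOrbit {n : ℕ} (C : Matrix (Fin n) (Fin n) F) : Finset (Matrix (Fin n) (Fin n) F) :=
  Finset.univ.filter fun M => ∃ A : Matrix (Fin n) (Fin n) F, A.det ≠ 0 ∧ enc (A * C * Aᵀ) = M

omit [CharP F 2] in
theorem mem_encOrbit {n : ℕ} {C M : Matrix (Fin n) (Fin n) F} :
    M ∈ encOrbit C ↔ ∃ A : Matrix (Fin n) (Fin n) F, A.det ≠ 0 ∧ enc (A * C * Aᵀ) = M := by
  simp [encOrbit]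

omit [CharP F 2] in
theorem encOrbit_trans {n : ℕ} {C M : Matrix (Fin n) (Fin n) F} (h : M ∈ encOrbit C)
    {A : Matrix (Fin n) (Fin n) F} (hA : A.det ≠ 0) : enc (A * upp M * Aᵀ) ∈ encOrbit C := by
  obtain ⟨B, hB, rfl⟩ := mem_encOrbit.1 h
  refine mem_encOrbit.2 ⟨A * B, by rw [Matrix.det_mul]; exact mul_ne_zero hA hB, ?_⟩
  rw [enc_congr_upp]
  simp only [Matrix.transpose_mul, Matrix.mul_assoc]

omit [Fintype F] [DecidableEq F] [CharP F 2] in
theorem pol_enc_congr {n : ℕ} (A C : Matrix (Fin n) (Fin n) F) :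
    pol (enc (A * C * Aᵀ)) = A * (C + Cᵀ) * Aᵀ := by
  rw [pol_enc]
  simp only [Matrix.mul_add, Matrix.add_mul, Matrix.transpose_mul, Matrix.transpose_transpose,
    Matrix.mul_assoc]

theorem card_shifts_le_fiber {n : ℕ} {C M : Matrix (Fin n) (Fin n) F} (hM : M ∈ encOrbit C)
    (U : Finset (Fin n → F)) (hU : ∀ u ∈ U, ∃ z, z ^ 2 * qval (upp M) u + z = 1) :
    (U.image fun u => pol M *ᵥ u).card ≤ ((encOrbit C).filter fun M' => pol M' = pol M).card := by
  classical
  refine Finset.card_le_card_of_injOn (fun a => M + Matrix.diagonal fun i => a i ^ 2) ?_ ?_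
  · intro a ha
    obtain ⟨u, hu, rfl⟩ := Finset.mem_image.1 ha
    obtain ⟨z, hz⟩ := hU u hu
    obtain ⟨A, hA, hAM⟩ := exists_shift (upp M) u z hz
    have hMs : Mᵀ = M := by obtain ⟨B, -, rfl⟩ := mem_encOrbit.1 hM; exact enc_transpose _
    rw [enc_upp hMs] at hAM
    refine Finset.mem_filter.2 ⟨?_, ?_⟩
    · change M + Matrix.diagonal (fun i => ((upp M + (upp M)ᵀ) *ᵥ u) i ^ 2) ∈ _
      rw [← hAM]; exact encOrbit_trans hM hA
    · ext i j
      rcases eq_or_ne i j with rfl | h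
      · simp [pol, upp, CharTwo.add_self_eq_zero]
      · simp [pol, upp, h, h.symm]
  · intro a _ a' _ h
    funext i
    have := congrFun (congrFun h i) i
    simp only [Matrix.add_apply, Matrix.diagonal_apply_eq, add_right_inj] at this
    exact (CharTwo.sq_injective) this

/-- The orbit bound. -/
theorem card_encOrbit {n : ℕ} (hn : 2 ≤ n) (C : Matrix (Fin n) (Fin n) F) (hC : C + Cᵀ ≠ 0) :
    (Fintype.card F ^ n - 1) * (Fintype.card F ^ n - Fintype.card F) ≤
      2 * (Fintype.card F + 1) * (encOrbit C).card := by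
  classical
  obtain ⟨m, rfl⟩ : ∃ m, n = m + 1 := ⟨n - 1, by omega⟩
  set q := Fintype.card F with hq
  have hq1 : 2 ≤ q := Fintype.one_lt_card
  set O := encOrbit C
  set Bs := congrOrbit (C + Cᵀ)
  set P := offKer (C + Cᵀ)
  have hN : q * ((q ^ (m + 1) - 1) * (q ^ m - 1)) = (q ^ (m + 1) - 1) * (q ^ (m + 1) - q) := by
    rw [show q ^ (m + 1) - q = q * (q ^ m - 1) by rw [Nat.mul_sub, mul_one, pow_succ'], ← mul_assoc,
      mul_comm q, mul_assoc]
  set N := (q ^ (m + 1) - 1) * (q ^ m - 1) with hNdef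
  -- double counting
  have hdc : N * q ^ m ≤ q * (Bs.card * P) := by
    have h1 : (∑ x ∈ (Finset.univ : Finset (Fin (m + 1) → F)).erase 0,
        (q * (Bs.filter fun M => M *ᵥ x ≠ 0).card)) ≤ q * (Bs.card * P) := by
      rw [← Finset.mul_sum]
      refine Nat.mul_le_mul_left _ ?_
      refine (Finset.sum_le_sum_of_subset (Finset.erase_subset _ _)).trans ?_
      have hsw := Finset.sum_card_bipartiteAbove_eq_sum_card_bipartiteBelow
        (fun (M : Matrix (Fin (m + 1)) (Fin (m + 1)) F) (x : Fin (m + 1) → F) => M *ᵥ x ≠ 0)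
        (s := Bs) (t := Finset.univ)
      refine hsw.symm.le.trans ?_
      rw [← smul_eq_mul]
      refine Finset.sum_le_card_nsmul _ _ _ fun M hM => ?_
      obtain ⟨A, hA, rfl⟩ := mem_congrOrbit.1 hM
      exact (offKer_congr (C + Cᵀ) A hA).le
    refine le_trans ?_ h1
    have hK : ∀ x ∈ (Finset.univ : Finset (Fin (m + 1) → F)).erase 0,
        (q ^ m - 1) * q ^ m ≤ q * (Bs.filter fun M => M *ᵥ x ≠ 0).card :=
      fun x hx => card_congrOrbit_offKer C hC (Finset.ne_of_mem_erase hx)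
    refine le_trans ?_ (Finset.card_nsmul_le_sum _ _ _ hK)
    rw [Finset.card_erase_of_mem (Finset.mem_univ _), Finset.card_univ, Fintype.card_fun, Fintype.card_fin,
      smul_eq_mul, ← hq, hNdef, mul_assoc]
  -- the fibres
  have hmaps : ∀ M ∈ O, pol M ∈ Bs := by
    intro M hM
    obtain ⟨A, hA, rfl⟩ := mem_encOrbit.1 hM
    exact mem_congrOrbit.2 ⟨A, hA, (pol_enc_congr A C).symm⟩
  have hsurj : ∀ B ∈ Bs, ∃ M ∈ O, pol M = B := by
    intro B hB
    obtain ⟨A, hA, rfl⟩ := mem_congrOrbit.1 hB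
    exact ⟨_, mem_encOrbit.2 ⟨A, hA, rfl⟩, pol_enc_congr A C⟩
  have hsum := Finset.card_eq_sum_card_fiberwise hmaps
  have hfib : ∀ B ∈ Bs, q * (q - 1) ≤ 2 * (O.filter fun M' => pol M' = B).card ∧
      (q ^ 2 ≤ 2 * (O.filter fun M' => pol M' = B).card ∨ P * q ^ 2 + q ^ (m + 1) ≤ q ^ (m + 1) * q ^ 2) := by
    intro B hB
    obtain ⟨M, hM, rfl⟩ := hsurj B hB
    obtain ⟨A, hA, hAM⟩ := mem_congrOrbit.1 hB
    have hne : upp M + (upp M)ᵀ ≠ 0 := by
      change pol M ≠ 0
      rw [← hAM]; exact congr_ne_zero hA hC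
    obtain ⟨U, hU, h1, h2⟩ := card_shifts (upp M) hne
    have hle := card_shifts_le_fiber hM U hU
    refine ⟨h1.trans (Nat.mul_le_mul_left _ hle), h2.imp (fun h => h.trans (Nat.mul_le_mul_left _ hle)) fun h => ?_⟩
    change offKer (pol M) * q ^ 2 + _ ≤ _ at h
    rwa [← hAM, offKer_congr _ _ hA] at h
  have hlow : ∀ b, (∀ B ∈ Bs, b ≤ 2 * (O.filter fun M' => pol M' = B).card) → Bs.card * b ≤ 2 * O.card := by
    intro b hb
    rw [hsum, Finset.mul_sum, ← smul_eq_mul]
    exact Finset.card_nsmul_le_sum _ _ _ hb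
  rw [← hN]
  have hqm : 0 < q ^ (m + 1) := pow_pos (by omega) _
  by_cases hA : P * q ^ 2 + q ^ (m + 1) ≤ q ^ (m + 1) * q ^ 2
  · have hO := hlow _ fun B hB => (hfib B hB).1
    have h3 : N + Bs.card ≤ Bs.card * q ^ 2 := by
      refine Nat.le_of_mul_le_mul_right ?_ hqm
      have e : N * q ^ (m + 1) = N * q ^ m * q := by rw [pow_succ]; ring
      calc (N + Bs.card) * q ^ (m + 1) = N * q ^ m * q + Bs.card * q ^ (m + 1) := by rw [add_mul, e]
        _ ≤ q * (Bs.card * P) * q + Bs.card * q ^ (m + 1) := by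
          gcongr
        _ = Bs.card * (P * q ^ 2 + q ^ (m + 1)) := by ring
        _ ≤ Bs.card * (q ^ (m + 1) * q ^ 2) := Nat.mul_le_mul_left _ hA
        _ = Bs.card * q ^ 2 * q ^ (m + 1) := by ring
    obtain ⟨p, hp⟩ : ∃ p, q = p + 1 := ⟨q - 1, by omega⟩
    rw [hp, Nat.add_sub_cancel] at hO
    rw [hp] at h3 ⊢
    have h5 := Nat.mul_le_mul_left (p + 2) hO
    have h6 := Nat.mul_le_mul_left (p + 1) h3
    nlinarith
  · have hO := hlow _ fun B hB => (hfib B hB).2.resolve_right hA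
    have h3 : N ≤ Bs.card * q ^ 2 := by
      have hP : P ≤ q ^ (m + 1) := (Finset.card_le_univ _).trans (by rw [Fintype.card_fun, Fintype.card_fin])
      refine Nat.le_of_mul_le_mul_right ?_ hqm
      calc N * q ^ (m + 1) = N * q ^ m * q := by rw [pow_succ]; ring
        _ ≤ q * (Bs.card * P) * q := Nat.mul_le_mul_right _ hdc
        _ ≤ q * (Bs.card * q ^ (m + 1)) * q := by gcongr
        _ = Bs.card * q ^ 2 * q ^ (m + 1) := by ring
    calc q * N ≤ (q + 1) * (Bs.card * q ^ 2) := Nat.mul_le_mul (Nat.le_succ q) h3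
      _ ≤ (q + 1) * (2 * O.card) := Nat.mul_le_mul_left _ hO
      _ = 2 * (q + 1) * O.card := by ring

end CfsgLib.SympEvenDeg
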